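import Mathlib
import Cfsg.Agent.H482.VSeq
import Cfsg.Agent.LieRecognition.SzMatrix

/-!
# A fixed pair for the words `v_n` in `Sz(8)` (for S3935)
-/

set_option autoImplicit false
set_option linter.unusedSectionVars false

namespace Cfsg.Agent.H64.VsSz

open Cfsg.Agent.H482.VSeq
open Matrix hiding J
open Cfsg.Agent.LieRecognition.SzMatrix

variable {F : Type*} [Field F]

theorem mul_eq (A B C : Matrix (Fin 4) (Fin 4) F)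
    (h : ∀ i j, A i 0 * B 0 j + A i 1 * B 1 j + A i 2 * B 2 j + A i 3 * B 3 j = C i j) : A * B = C := by
  ext i j
  rw [Matrix.mul_apply, Fin.sum_univ_four, h]

theorem one_eq : (1 : Matrix (Fin 4) (Fin 4) F) = !![1, 0, 0, 0; 0, 1, 0, 0; 0, 0, 1, 0; 0, 0, 0, 1] := by
  ext i j
  fin_cases i <;> fin_cases j <;> rfl

def mX (t : F) : Matrix (Fin 4) (Fin 4) F := !![0, 0, 0, 1; 0, 0, 1, 0; 0, 1, 0, t; 1, 0, t, t ^ 2 + t]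
def mY (t : F) : Matrix (Fin 4) (Fin 4) F := !![t ^ 2, 0, t ^ 2, t ^ 2; t ^ 2 + t, t ^ 2 + 1, t ^ 2 + t, t + 1; 0, 1, t, 1; 1, t ^ 2, t, t]
def mXI (t : F) : Matrix (Fin 4) (Fin 4) F := !![t ^ 2 + t, t, 0, 1; t, 0, 1, 0; 0, 1, 0, 0; 1, 0, 0, 0]
def mYI (t : F) : Matrix (Fin 4) (Fin 4) F := !![t, 1, t + 1, t ^ 2; t, t, t ^ 2 + t, t ^ 2; t ^ 2, 1, t ^ 2 + 1, 0; 1, 0, t ^ 2 + t, t ^ 2]
def mP1 (t : F) : Matrix (Fin 4) (Fin 4) F := !![t ^ 2 + t + 1, t ^ 2 + t + 1, t, t ^ 2 + t; t ^ 2 + t + 1, t ^ 2 + 1, 0, t; t, 0, 1, 0; t ^ 2 + t, t, 0, 1]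
def mP2 (t : F) : Matrix (Fin 4) (Fin 4) F := !![t ^ 2 + 1, 0, t ^ 2 + 1, t ^ 2 + 1; t ^ 2 + t, t ^ 2 + t, t ^ 2 + t, 0; 0, t + 1, t + 1, t + 1; t, t, 0, t]
def mV (t : F) : Matrix (Fin 4) (Fin 4) F := !![t ^ 2 + 1, t ^ 2 + 1, 1, t ^ 2 + t + 1; 0, t ^ 2 + t, t ^ 2 + t, 1; t + 1, t + 1, t ^ 2 + 1, t ^ 2 + t + 1; t, 0, t ^ 2 + t, t ^ 2 + 1]
def mA1 (t : F) : Matrix (Fin 4) (Fin 4) F := !![t, 0, t ^ 2 + t, t ^ 2 + 1; t + 1, t + 1, t ^ 2 + 1, t ^ 2 + t + 1; t ^ 2, t ^ 2 + t, 1, 0; t ^ 2, t + 1, t, 1]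
def mA (t : F) : Matrix (Fin 4) (Fin 4) F := !![t, t, 0, t; 0, t + 1, t + 1, t + 1; t, t, t ^ 2 + t, t ^ 2; t, 1, t + 1, t ^ 2]
def mB1 (t : F) : Matrix (Fin 4) (Fin 4) F := !![t ^ 2 + t, t ^ 2 + 1, t + 1, t; t ^ 2, 1, t ^ 2 + t + 1, 1; t ^ 2, 0, 1, 1; t ^ 2 + t + 1, t ^ 2 + t, t, t ^ 2 + t + 1]
def mB (t : F) : Matrix (Fin 4) (Fin 4) F := !![t + 1, t ^ 2, 1, t ^ 2; 1, 1, 1, t ^ 2 + t; t ^ 2 + t, t ^ 2 + 1, t ^ 2, t; t ^ 2 + t, t, t ^ 2 + 1, t ^ 2 + 1]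
def mC (t : F) : Matrix (Fin 4) (Fin 4) F := !![t + 1, t ^ 2 + 1, 1, t ^ 2 + 1; t + 1, 1, 0, t + 1; t + 1, 1, t ^ 2 + t + 1, 1; t + 1, t ^ 2 + 1, t ^ 2 + t, 1]
def mD1 (t : F) : Matrix (Fin 4) (Fin 4) F := !![t + 1, t ^ 2 + t + 1, t, t ^ 2 + 1; t, t ^ 2 + t + 1, t ^ 2 + t, 0; 1, t ^ 2 + t, t ^ 2, 1; t ^ 2 + t + 1, 1, 0, t + 1]
def mU1 (t : F) : Matrix (Fin 4) (Fin 4) F := !![1, 0, t, t ^ 2 + t; 0, 1, 0, t; 0, 0, 1, 0; 0, 0, 0, 1]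
def mU2 (t : F) : Matrix (Fin 4) (Fin 4) F := !![1, 0, t ^ 2 + t, t ^ 2; 0, 1, 0, t ^ 2 + t; 0, 0, 1, 0; 0, 0, 0, 1]
def mU3 (t : F) : Matrix (Fin 4) (Fin 4) F := !![1, t ^ 2, t, t; 0, 1, t, 1; 0, 0, 1, t ^ 2; 0, 0, 0, 1]
def mY1 (t : F) : Matrix (Fin 4) (Fin 4) F := !![t ^ 2, t ^ 2 + t, 0, 1; t ^ 2 + t, 0, 1, 0; 0, 1, 0, 0; 1, 0, 0, 0]

section
variable {t : F} (h0 : (2 : F) = 0) (ht : t ^ 3 + t + 1 = 0)
include h0 ht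

theorem e1 : mX t * mXI t = 1 := by
  rw [one_eq]
  refine mul_eq _ _ _ ?_
  intro i j
  fin_cases i <;> fin_cases j
  · show 0 * (t ^ 2 + t) + 0 * t + 0 * 0 + 1 * 1 = (1 : F)
    ring
  · show 0 * t + 0 * 0 + 0 * 1 + 1 * 0 = (0 : F)
    ring
  · show 0 * 0 + 0 * 1 + 0 * 0 + 1 * 0 = (0 : F)
    ring
  · show 0 * 1 + 0 * 0 + 0 * 0 + 1 * 0 = (0 : F)
    ring
  · show 0 * (t ^ 2 + t) + 0 * t + 1 * 0 + 0 * 1 = (0 : F)
    ring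
  · show 0 * t + 0 * 0 + 1 * 1 + 0 * 0 = (1 : F)
    ring
  · show 0 * 0 + 0 * 1 + 1 * 0 + 0 * 0 = (0 : F)
    ring
  · show 0 * 1 + 0 * 0 + 1 * 0 + 0 * 0 = (0 : F)
    ring
  · show 0 * (t ^ 2 + t) + 1 * t + 0 * 0 + t * 1 = (0 : F)
    linear_combination ((1) * t) * h0
  · show 0 * t + 1 * 0 + 0 * 1 + t * 0 = (0 : F)
    ring
  · show 0 * 0 + 1 * 1 + 0 * 0 + t * 0 = (1 : F)
    ring
  · show 0 * 1 + 1 * 0 + 0 * 0 + t * 0 = (0 : F)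
    ring
  · show 1 * (t ^ 2 + t) + 0 * t + t * 0 + (t ^ 2 + t) * 1 = (0 : F)
    linear_combination ((1) * t + (1) * t ^ 2) * h0
  · show 1 * t + 0 * 0 + t * 1 + (t ^ 2 + t) * 0 = (0 : F)
    linear_combination ((1) * t) * h0
  · show 1 * 0 + 0 * 1 + t * 0 + (t ^ 2 + t) * 0 = (0 : F)
    ring
  · show 1 * 1 + 0 * 0 + t * 0 + (t ^ 2 + t) * 0 = (1 : F)
    ring
theorem e2 : mY t * mYI t = 1 := by
  rw [one_eq]
  refine mul_eq _ _ _ ?_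
  intro i j
  fin_cases i <;> fin_cases j
  · show (t ^ 2) * t + 0 * t + (t ^ 2) * (t ^ 2) + (t ^ 2) * 1 = (1 : F)
    linear_combination ((-1) + (-1) * t) * h0 + ((1) + (1) * t) * ht
  · show (t ^ 2) * 1 + 0 * t + (t ^ 2) * 1 + (t ^ 2) * 0 = (0 : F)
    linear_combination ((1) * t ^ 2) * h0
  · show (t ^ 2) * (t + 1) + 0 * (t ^ 2 + t) + (t ^ 2) * (t ^ 2 + 1) + (t ^ 2) * (t ^ 2 + t) = (0 : F)
    linear_combination ((-1) + (-2) * t) * h0 + ((2) + (2) * t) * ht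
  · show (t ^ 2) * (t ^ 2) + 0 * (t ^ 2) + (t ^ 2) * 0 + (t ^ 2) * (t ^ 2) = (0 : F)
    linear_combination ((-1) * t + (-1) * t ^ 2) * h0 + ((2) * t) * ht
  · show (t ^ 2 + t) * t + (t ^ 2 + 1) * t + (t ^ 2 + t) * (t ^ 2) + (t + 1) * 1 = (0 : F)
    linear_combination ((-1) + (-1) * t) * h0 + ((3) + (1) * t) * ht
  · show (t ^ 2 + t) * 1 + (t ^ 2 + 1) * t + (t ^ 2 + t) * 1 + (t + 1) * 0 = (1 : F)
    linear_combination ((-1) + (1) * t + (1) * t ^ 2) * h0 + ((1)) * ht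
  · show (t ^ 2 + t) * (t + 1) + (t ^ 2 + 1) * (t ^ 2 + t) + (t ^ 2 + t) * (t ^ 2 + 1) + (t + 1) * (t ^ 2 + t) = (0 : F)
    linear_combination ((-2) + (-1) * t + (2) * t ^ 2) * h0 + ((4) + (2) * t) * ht
  · show (t ^ 2 + t) * (t ^ 2) + (t ^ 2 + 1) * (t ^ 2) + (t ^ 2 + t) * 0 + (t + 1) * (t ^ 2) = (0 : F)
    linear_combination ((-1) + (-2) * t) * h0 + ((2) + (2) * t) * ht
  · show 0 * t + 1 * t + t * (t ^ 2) + 1 * 1 = (0 : F)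
    linear_combination ((1)) * ht
  · show 0 * 1 + 1 * t + t * 1 + 1 * 0 = (0 : F)
    linear_combination ((1) * t) * h0
  · show 0 * (t + 1) + 1 * (t ^ 2 + t) + t * (t ^ 2 + 1) + 1 * (t ^ 2 + t) = (1 : F)
    linear_combination ((-1) + (1) * t + (1) * t ^ 2) * h0 + ((1)) * ht
  · show 0 * (t ^ 2) + 1 * (t ^ 2) + t * 0 + 1 * (t ^ 2) = (0 : F)
    linear_combination ((1) * t ^ 2) * h0
  · show 1 * t + (t ^ 2) * t + t * (t ^ 2) + t * 1 = (0 : F)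
    linear_combination ((-1)) * h0 + ((2)) * ht
  · show 1 * 1 + (t ^ 2) * t + t * 1 + t * 0 = (0 : F)
    linear_combination ((1)) * ht
  · show 1 * (t + 1) + (t ^ 2) * (t ^ 2 + t) + t * (t ^ 2 + 1) + t * (t ^ 2 + t) = (0 : F)
    linear_combination ((-1) + (-1) * t) * h0 + ((3) + (1) * t) * ht
  · show 1 * (t ^ 2) + (t ^ 2) * (t ^ 2) + t * 0 + t * (t ^ 2) = (1 : F)
    linear_combination ((-1) + (-1) * t) * h0 + ((1) + (1) * t) * ht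
theorem e3 : mXI t * mXI t = mP1 t := by
  refine mul_eq _ _ _ ?_
  intro i j
  fin_cases i <;> fin_cases j
  · show (t ^ 2 + t) * (t ^ 2 + t) + t * t + 0 * 0 + 1 * 1 = (t ^ 2 + t + 1 : F)
    linear_combination ((-1) + (-2) * t) * h0 + ((2) + (1) * t) * ht
  · show (t ^ 2 + t) * t + t * 0 + 0 * 1 + 1 * 0 = (t ^ 2 + t + 1 : F)
    linear_combination ((-1) + (-1) * t) * h0 + ((1)) * ht
  · show (t ^ 2 + t) * 0 + t * 1 + 0 * 0 + 1 * 0 = (t : F)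
    ring
  · show (t ^ 2 + t) * 1 + t * 0 + 0 * 0 + 1 * 0 = (t ^ 2 + t : F)
    ring
  · show t * (t ^ 2 + t) + 0 * t + 1 * 0 + 0 * 1 = (t ^ 2 + t + 1 : F)
    linear_combination ((-1) + (-1) * t) * h0 + ((1)) * ht
  · show t * t + 0 * 0 + 1 * 1 + 0 * 0 = (t ^ 2 + 1 : F)
    ring
  · show t * 0 + 0 * 1 + 1 * 0 + 0 * 0 = (0 : F)
    ring
  · show t * 1 + 0 * 0 + 1 * 0 + 0 * 0 = (t : F)
    ring
  · show 0 * (t ^ 2 + t) + 1 * t + 0 * 0 + 0 * 1 = (t : F)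
    ring
  · show 0 * t + 1 * 0 + 0 * 1 + 0 * 0 = (0 : F)
    ring
  · show 0 * 0 + 1 * 1 + 0 * 0 + 0 * 0 = (1 : F)
    ring
  · show 0 * 1 + 1 * 0 + 0 * 0 + 0 * 0 = (0 : F)
    ring
  · show 1 * (t ^ 2 + t) + 0 * t + 0 * 0 + 0 * 1 = (t ^ 2 + t : F)
    ring
  · show 1 * t + 0 * 0 + 0 * 1 + 0 * 0 = (t : F)
    ring
  · show 1 * 0 + 0 * 1 + 0 * 0 + 0 * 0 = (0 : F)
    ring
  · show 1 * 1 + 0 * 0 + 0 * 0 + 0 * 0 = (1 : F)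
    ring
theorem e4 : mP1 t * mYI t = mP2 t := by
  refine mul_eq _ _ _ ?_
  intro i j
  fin_cases i <;> fin_cases j
  · show (t ^ 2 + t + 1) * t + (t ^ 2 + t + 1) * t + t * (t ^ 2) + (t ^ 2 + t) * 1 = (t ^ 2 + 1 : F)
    linear_combination ((-2) + (1) * t ^ 2) * h0 + ((3)) * ht
  · show (t ^ 2 + t + 1) * 1 + (t ^ 2 + t + 1) * t + t * 1 + (t ^ 2 + t) * 0 = (0 : F)
    linear_combination ((1) * t + (1) * t ^ 2) * h0 + ((1)) * ht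
  · show (t ^ 2 + t + 1) * (t + 1) + (t ^ 2 + t + 1) * (t ^ 2 + t) + t * (t ^ 2 + 1) + (t ^ 2 + t) * (t ^ 2 + t) = (t ^ 2 + 1 : F)
    linear_combination ((-3) + (-2) * t + (1) * t ^ 2) * h0 + ((6) + (2) * t) * ht
  · show (t ^ 2 + t + 1) * (t ^ 2) + (t ^ 2 + t + 1) * (t ^ 2) + t * 0 + (t ^ 2 + t) * (t ^ 2) = (t ^ 2 + 1 : F)
    linear_combination ((-2) + (-3) * t + (-1) * t ^ 2) * h0 + ((3) + (3) * t) * ht
  · show (t ^ 2 + t + 1) * t + (t ^ 2 + 1) * t + 0 * (t ^ 2) + t * 1 = (t ^ 2 + t : F)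
    linear_combination ((-1)) * h0 + ((2)) * ht
  · show (t ^ 2 + t + 1) * 1 + (t ^ 2 + 1) * t + 0 * 1 + t * 0 = (t ^ 2 + t : F)
    linear_combination ((1)) * ht
  · show (t ^ 2 + t + 1) * (t + 1) + (t ^ 2 + 1) * (t ^ 2 + t) + 0 * (t ^ 2 + 1) + t * (t ^ 2 + t) = (t ^ 2 + t : F)
    linear_combination ((-1) + (-1) * t + (1) * t ^ 2) * h0 + ((3) + (1) * t) * ht
  · show (t ^ 2 + t + 1) * (t ^ 2) + (t ^ 2 + 1) * (t ^ 2) + 0 * 0 + t * (t ^ 2) = (0 : F)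
    linear_combination ((-1) + (-2) * t) * h0 + ((2) + (2) * t) * ht
  · show t * t + 0 * t + 1 * (t ^ 2) + 0 * 1 = (0 : F)
    linear_combination ((1) * t ^ 2) * h0
  · show t * 1 + 0 * t + 1 * 1 + 0 * 0 = (t + 1 : F)
    ring
  · show t * (t + 1) + 0 * (t ^ 2 + t) + 1 * (t ^ 2 + 1) + 0 * (t ^ 2 + t) = (t + 1 : F)
    linear_combination ((1) * t ^ 2) * h0
  · show t * (t ^ 2) + 0 * (t ^ 2) + 1 * 0 + 0 * (t ^ 2) = (t + 1 : F)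
    linear_combination ((-1) + (-1) * t) * h0 + ((1)) * ht
  · show (t ^ 2 + t) * t + t * t + 0 * (t ^ 2) + 1 * 1 = (t : F)
    linear_combination ((-1) * t + (1) * t ^ 2) * h0 + ((1)) * ht
  · show (t ^ 2 + t) * 1 + t * t + 0 * 1 + 1 * 0 = (t : F)
    linear_combination ((1) * t ^ 2) * h0
  · show (t ^ 2 + t) * (t + 1) + t * (t ^ 2 + t) + 0 * (t ^ 2 + 1) + 1 * (t ^ 2 + t) = (0 : F)
    linear_combination ((-1) + (2) * t ^ 2) * h0 + ((2)) * ht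
  · show (t ^ 2 + t) * (t ^ 2) + t * (t ^ 2) + 0 * 0 + 1 * (t ^ 2) = (t : F)
    linear_combination ((-1) + (-2) * t) * h0 + ((2) + (1) * t) * ht
theorem e5 : mP2 t * mX t = mV t := by
  refine mul_eq _ _ _ ?_
  intro i j
  fin_cases i <;> fin_cases j
  · show (t ^ 2 + 1) * 0 + 0 * 0 + (t ^ 2 + 1) * 0 + (t ^ 2 + 1) * 1 = (t ^ 2 + 1 : F)
    ring
  · show (t ^ 2 + 1) * 0 + 0 * 0 + (t ^ 2 + 1) * 1 + (t ^ 2 + 1) * 0 = (t ^ 2 + 1 : F)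
    ring
  · show (t ^ 2 + 1) * 0 + 0 * 1 + (t ^ 2 + 1) * 0 + (t ^ 2 + 1) * t = (1 : F)
    linear_combination ((-1)) * h0 + ((1)) * ht
  · show (t ^ 2 + 1) * 1 + 0 * 0 + (t ^ 2 + 1) * t + (t ^ 2 + 1) * (t ^ 2 + t) = (t ^ 2 + t + 1 : F)
    linear_combination ((-1) + (-1) * t) * h0 + ((2) + (1) * t) * ht
  · show (t ^ 2 + t) * 0 + (t ^ 2 + t) * 0 + (t ^ 2 + t) * 0 + 0 * 1 = (0 : F)
    ring
  · show (t ^ 2 + t) * 0 + (t ^ 2 + t) * 0 + (t ^ 2 + t) * 1 + 0 * 0 = (t ^ 2 + t : F)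
    ring
  · show (t ^ 2 + t) * 0 + (t ^ 2 + t) * 1 + (t ^ 2 + t) * 0 + 0 * t = (t ^ 2 + t : F)
    ring
  · show (t ^ 2 + t) * 1 + (t ^ 2 + t) * 0 + (t ^ 2 + t) * t + 0 * (t ^ 2 + t) = (1 : F)
    linear_combination ((-1) + (1) * t ^ 2) * h0 + ((1)) * ht
  · show 0 * 0 + (t + 1) * 0 + (t + 1) * 0 + (t + 1) * 1 = (t + 1 : F)
    ring
  · show 0 * 0 + (t + 1) * 0 + (t + 1) * 1 + (t + 1) * 0 = (t + 1 : F)
    ring
  · show 0 * 0 + (t + 1) * 1 + (t + 1) * 0 + (t + 1) * t = (t ^ 2 + 1 : F)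
    linear_combination ((1) * t) * h0
  · show 0 * 1 + (t + 1) * 0 + (t + 1) * t + (t + 1) * (t ^ 2 + t) = (t ^ 2 + t + 1 : F)
    linear_combination ((-1) + (1) * t ^ 2) * h0 + ((1)) * ht
  · show t * 0 + t * 0 + 0 * 0 + t * 1 = (t : F)
    ring
  · show t * 0 + t * 0 + 0 * 1 + t * 0 = (0 : F)
    ring
  · show t * 0 + t * 1 + 0 * 0 + t * t = (t ^ 2 + t : F)
    ring
  · show t * 1 + t * 0 + 0 * t + t * (t ^ 2 + t) = (t ^ 2 + 1 : F)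
    linear_combination ((-1)) * h0 + ((1)) * ht
theorem e6 : mX t * mV t = mA1 t := by
  refine mul_eq _ _ _ ?_
  intro i j
  fin_cases i <;> fin_cases j
  · show 0 * (t ^ 2 + 1) + 0 * 0 + 0 * (t + 1) + 1 * t = (t : F)
    ring
  · show 0 * (t ^ 2 + 1) + 0 * (t ^ 2 + t) + 0 * (t + 1) + 1 * 0 = (0 : F)
    ring
  · show 0 * 1 + 0 * (t ^ 2 + t) + 0 * (t ^ 2 + 1) + 1 * (t ^ 2 + t) = (t ^ 2 + t : F)
    ring
  · show 0 * (t ^ 2 + t + 1) + 0 * 1 + 0 * (t ^ 2 + t + 1) + 1 * (t ^ 2 + 1) = (t ^ 2 + 1 : F)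
    ring
  · show 0 * (t ^ 2 + 1) + 0 * 0 + 1 * (t + 1) + 0 * t = (t + 1 : F)
    ring
  · show 0 * (t ^ 2 + 1) + 0 * (t ^ 2 + t) + 1 * (t + 1) + 0 * 0 = (t + 1 : F)
    ring
  · show 0 * 1 + 0 * (t ^ 2 + t) + 1 * (t ^ 2 + 1) + 0 * (t ^ 2 + t) = (t ^ 2 + 1 : F)
    ring
  · show 0 * (t ^ 2 + t + 1) + 0 * 1 + 1 * (t ^ 2 + t + 1) + 0 * (t ^ 2 + 1) = (t ^ 2 + t + 1 : F)
    ring
  · show 0 * (t ^ 2 + 1) + 1 * 0 + 0 * (t + 1) + t * t = (t ^ 2 : F)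
    ring
  · show 0 * (t ^ 2 + 1) + 1 * (t ^ 2 + t) + 0 * (t + 1) + t * 0 = (t ^ 2 + t : F)
    ring
  · show 0 * 1 + 1 * (t ^ 2 + t) + 0 * (t ^ 2 + 1) + t * (t ^ 2 + t) = (1 : F)
    linear_combination ((-1) + (1) * t ^ 2) * h0 + ((1)) * ht
  · show 0 * (t ^ 2 + t + 1) + 1 * 1 + 0 * (t ^ 2 + t + 1) + t * (t ^ 2 + 1) = (0 : F)
    linear_combination ((1)) * ht
  · show 1 * (t ^ 2 + 1) + 0 * 0 + t * (t + 1) + (t ^ 2 + t) * t = (t ^ 2 : F)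
    linear_combination ((1) * t ^ 2) * h0 + ((1)) * ht
  · show 1 * (t ^ 2 + 1) + 0 * (t ^ 2 + t) + t * (t + 1) + (t ^ 2 + t) * 0 = (t + 1 : F)
    linear_combination ((1) * t ^ 2) * h0
  · show 1 * 1 + 0 * (t ^ 2 + t) + t * (t ^ 2 + 1) + (t ^ 2 + t) * (t ^ 2 + t) = (t : F)
    linear_combination ((-1) + (-2) * t) * h0 + ((3) + (1) * t) * ht
  · show 1 * (t ^ 2 + t + 1) + 0 * 1 + t * (t ^ 2 + t + 1) + (t ^ 2 + t) * (t ^ 2 + 1) = (1 : F)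
    linear_combination ((-1) + (1) * t ^ 2) * h0 + ((2) + (1) * t) * ht
theorem e7 : mA1 t * mXI t = mA t := by
  refine mul_eq _ _ _ ?_
  intro i j
  fin_cases i <;> fin_cases j
  · show t * (t ^ 2 + t) + 0 * t + (t ^ 2 + t) * 0 + (t ^ 2 + 1) * 1 = (t : F)
    linear_combination ((-1) * t + (1) * t ^ 2) * h0 + ((1)) * ht
  · show t * t + 0 * 0 + (t ^ 2 + t) * 1 + (t ^ 2 + 1) * 0 = (t : F)
    linear_combination ((1) * t ^ 2) * h0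
  · show t * 0 + 0 * 1 + (t ^ 2 + t) * 0 + (t ^ 2 + 1) * 0 = (0 : F)
    ring
  · show t * 1 + 0 * 0 + (t ^ 2 + t) * 0 + (t ^ 2 + 1) * 0 = (t : F)
    ring
  · show (t + 1) * (t ^ 2 + t) + (t + 1) * t + (t ^ 2 + 1) * 0 + (t ^ 2 + t + 1) * 1 = (0 : F)
    linear_combination ((1) * t + (2) * t ^ 2) * h0 + ((1)) * ht
  · show (t + 1) * t + (t + 1) * 0 + (t ^ 2 + 1) * 1 + (t ^ 2 + t + 1) * 0 = (t + 1 : F)
    linear_combination ((1) * t ^ 2) * h0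
  · show (t + 1) * 0 + (t + 1) * 1 + (t ^ 2 + 1) * 0 + (t ^ 2 + t + 1) * 0 = (t + 1 : F)
    ring
  · show (t + 1) * 1 + (t + 1) * 0 + (t ^ 2 + 1) * 0 + (t ^ 2 + t + 1) * 0 = (t + 1 : F)
    ring
  · show (t ^ 2) * (t ^ 2 + t) + (t ^ 2 + t) * t + 1 * 0 + 0 * 1 = (t : F)
    linear_combination ((-1) + (-2) * t) * h0 + ((2) + (1) * t) * ht
  · show (t ^ 2) * t + (t ^ 2 + t) * 0 + 1 * 1 + 0 * 0 = (t : F)
    linear_combination ((-1) * t) * h0 + ((1)) * ht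
  · show (t ^ 2) * 0 + (t ^ 2 + t) * 1 + 1 * 0 + 0 * 0 = (t ^ 2 + t : F)
    ring
  · show (t ^ 2) * 1 + (t ^ 2 + t) * 0 + 1 * 0 + 0 * 0 = (t ^ 2 : F)
    ring
  · show (t ^ 2) * (t ^ 2 + t) + (t + 1) * t + t * 0 + 1 * 1 = (t : F)
    linear_combination ((-1) * t) * h0 + ((1) + (1) * t) * ht
  · show (t ^ 2) * t + (t + 1) * 0 + t * 1 + 1 * 0 = (1 : F)
    linear_combination ((-1)) * h0 + ((1)) * ht
  · show (t ^ 2) * 0 + (t + 1) * 1 + t * 0 + 1 * 0 = (t + 1 : F)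
    ring
  · show (t ^ 2) * 1 + (t + 1) * 0 + t * 0 + 1 * 0 = (t ^ 2 : F)
    ring
theorem e8 : mY t * mV t = mB1 t := by
  refine mul_eq _ _ _ ?_
  intro i j
  fin_cases i <;> fin_cases j
  · show (t ^ 2) * (t ^ 2 + 1) + 0 * 0 + (t ^ 2) * (t + 1) + (t ^ 2) * t = (t ^ 2 + t : F)
    linear_combination ((-1) + (-2) * t) * h0 + ((2) + (1) * t) * ht
  · show (t ^ 2) * (t ^ 2 + 1) + 0 * (t ^ 2 + t) + (t ^ 2) * (t + 1) + (t ^ 2) * 0 = (t ^ 2 + 1 : F)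
    linear_combination ((-1) + (-1) * t) * h0 + ((1) + (1) * t) * ht
  · show (t ^ 2) * 1 + 0 * (t ^ 2 + t) + (t ^ 2) * (t ^ 2 + 1) + (t ^ 2) * (t ^ 2 + t) = (t + 1 : F)
    linear_combination ((-1) + (-2) * t) * h0 + ((1) + (2) * t) * ht
  · show (t ^ 2) * (t ^ 2 + t + 1) + 0 * 1 + (t ^ 2) * (t ^ 2 + t + 1) + (t ^ 2) * (t ^ 2 + 1) = (t : F)
    linear_combination ((-1) + (-3) * t) * h0 + ((2) + (3) * t) * ht
  · show (t ^ 2 + t) * (t ^ 2 + 1) + (t ^ 2 + 1) * 0 + (t ^ 2 + t) * (t + 1) + (t + 1) * t = (t ^ 2 : F)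
    linear_combination ((-1) + (1) * t ^ 2) * h0 + ((2) + (1) * t) * ht
  · show (t ^ 2 + t) * (t ^ 2 + 1) + (t ^ 2 + 1) * (t ^ 2 + t) + (t ^ 2 + t) * (t + 1) + (t + 1) * 0 = (1 : F)
    linear_combination ((-2) + (-1) * t + (1) * t ^ 2) * h0 + ((3) + (2) * t) * ht
  · show (t ^ 2 + t) * 1 + (t ^ 2 + 1) * (t ^ 2 + t) + (t ^ 2 + t) * (t ^ 2 + 1) + (t + 1) * (t ^ 2 + t) = (t ^ 2 + t + 1 : F)
    linear_combination ((-2) + (-1) * t + (1) * t ^ 2) * h0 + ((3) + (2) * t) * ht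
  · show (t ^ 2 + t) * (t ^ 2 + t + 1) + (t ^ 2 + 1) * 1 + (t ^ 2 + t) * (t ^ 2 + t + 1) + (t + 1) * (t ^ 2 + 1) = (1 : F)
    linear_combination ((-2) + (-2) * t + (2) * t ^ 2) * h0 + ((5) + (2) * t) * ht
  · show 0 * (t ^ 2 + 1) + 1 * 0 + t * (t + 1) + 1 * t = (t ^ 2 : F)
    linear_combination ((1) * t) * h0
  · show 0 * (t ^ 2 + 1) + 1 * (t ^ 2 + t) + t * (t + 1) + 1 * 0 = (0 : F)
    linear_combination ((1) * t + (1) * t ^ 2) * h0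
  · show 0 * 1 + 1 * (t ^ 2 + t) + t * (t ^ 2 + 1) + 1 * (t ^ 2 + t) = (1 : F)
    linear_combination ((-1) + (1) * t + (1) * t ^ 2) * h0 + ((1)) * ht
  · show 0 * (t ^ 2 + t + 1) + 1 * 1 + t * (t ^ 2 + t + 1) + 1 * (t ^ 2 + 1) = (1 : F)
    linear_combination ((1) * t ^ 2) * h0 + ((1)) * ht
  · show 1 * (t ^ 2 + 1) + (t ^ 2) * 0 + t * (t + 1) + t * t = (t ^ 2 + t + 1 : F)
    linear_combination ((1) * t ^ 2) * h0
  · show 1 * (t ^ 2 + 1) + (t ^ 2) * (t ^ 2 + t) + t * (t + 1) + t * 0 = (t ^ 2 + t : F)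
    linear_combination ((-1) * t) * h0 + ((1) + (1) * t) * ht
  · show 1 * 1 + (t ^ 2) * (t ^ 2 + t) + t * (t ^ 2 + 1) + t * (t ^ 2 + t) = (t : F)
    linear_combination ((-1) + (-2) * t) * h0 + ((3) + (1) * t) * ht
  · show 1 * (t ^ 2 + t + 1) + (t ^ 2) * 1 + t * (t ^ 2 + t + 1) + t * (t ^ 2 + 1) = (t ^ 2 + t + 1 : F)
    linear_combination ((-1) + (1) * t ^ 2) * h0 + ((2)) * ht
theorem e9 : mB1 t * mYI t = mB t := by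
  refine mul_eq _ _ _ ?_
  intro i j
  fin_cases i <;> fin_cases j
  · show (t ^ 2 + t) * t + (t ^ 2 + 1) * t + (t + 1) * (t ^ 2) + t * 1 = (t + 1 : F)
    linear_combination ((-2) + (-1) * t + (1) * t ^ 2) * h0 + ((3)) * ht
  · show (t ^ 2 + t) * 1 + (t ^ 2 + 1) * t + (t + 1) * 1 + t * 0 = (t ^ 2 : F)
    linear_combination ((1) * t) * h0 + ((1)) * ht
  · show (t ^ 2 + t) * (t + 1) + (t ^ 2 + 1) * (t ^ 2 + t) + (t + 1) * (t ^ 2 + 1) + t * (t ^ 2 + t) = (1 : F)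
    linear_combination ((-2) + (-1) * t + (2) * t ^ 2) * h0 + ((4) + (1) * t) * ht
  · show (t ^ 2 + t) * (t ^ 2) + (t ^ 2 + 1) * (t ^ 2) + (t + 1) * 0 + t * (t ^ 2) = (t ^ 2 : F)
    linear_combination ((-1) + (-2) * t + (-1) * t ^ 2) * h0 + ((2) + (2) * t) * ht
  · show (t ^ 2) * t + 1 * t + (t ^ 2 + t + 1) * (t ^ 2) + 1 * 1 = (1 : F)
    linear_combination ((-1) + (-1) * t) * h0 + ((2) + (1) * t) * ht
  · show (t ^ 2) * 1 + 1 * t + (t ^ 2 + t + 1) * 1 + 1 * 0 = (1 : F)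
    linear_combination ((1) * t + (1) * t ^ 2) * h0
  · show (t ^ 2) * (t + 1) + 1 * (t ^ 2 + t) + (t ^ 2 + t + 1) * (t ^ 2 + 1) + 1 * (t ^ 2 + t) = (1 : F)
    linear_combination ((-1) + (2) * t ^ 2) * h0 + ((2) + (1) * t) * ht
  · show (t ^ 2) * (t ^ 2) + 1 * (t ^ 2) + (t ^ 2 + t + 1) * 0 + 1 * (t ^ 2) = (t ^ 2 + t : F)
    linear_combination ((-1) * t) * h0 + ((1) * t) * ht
  · show (t ^ 2) * t + 0 * t + 1 * (t ^ 2) + 1 * 1 = (t ^ 2 + t : F)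
    linear_combination ((-1) * t) * h0 + ((1)) * ht
  · show (t ^ 2) * 1 + 0 * t + 1 * 1 + 1 * 0 = (t ^ 2 + 1 : F)
    ring
  · show (t ^ 2) * (t + 1) + 0 * (t ^ 2 + t) + 1 * (t ^ 2 + 1) + 1 * (t ^ 2 + t) = (t ^ 2 : F)
    linear_combination ((1) * t ^ 2) * h0 + ((1)) * ht
  · show (t ^ 2) * (t ^ 2) + 0 * (t ^ 2) + 1 * 0 + 1 * (t ^ 2) = (t : F)
    linear_combination ((-1) * t) * h0 + ((1) * t) * ht
  · show (t ^ 2 + t + 1) * t + (t ^ 2 + t) * t + t * (t ^ 2) + (t ^ 2 + t + 1) * 1 = (t ^ 2 + t : F)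
    linear_combination ((-1) + (-1) * t + (1) * t ^ 2) * h0 + ((3)) * ht
  · show (t ^ 2 + t + 1) * 1 + (t ^ 2 + t) * t + t * 1 + (t ^ 2 + t + 1) * 0 = (t : F)
    linear_combination ((1) * t ^ 2) * h0 + ((1)) * ht
  · show (t ^ 2 + t + 1) * (t + 1) + (t ^ 2 + t) * (t ^ 2 + t) + t * (t ^ 2 + 1) + (t ^ 2 + t + 1) * (t ^ 2 + t) = (t ^ 2 + 1 : F)
    linear_combination ((-3) + (-2) * t + (1) * t ^ 2) * h0 + ((6) + (2) * t) * ht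
  · show (t ^ 2 + t + 1) * (t ^ 2) + (t ^ 2 + t) * (t ^ 2) + t * 0 + (t ^ 2 + t + 1) * (t ^ 2) = (t ^ 2 + 1 : F)
    linear_combination ((-2) + (-3) * t + (-1) * t ^ 2) * h0 + ((3) + (3) * t) * ht
theorem e10 : mA t * mB t = mC t := by
  refine mul_eq _ _ _ ?_
  intro i j
  fin_cases i <;> fin_cases j
  · show t * (t + 1) + t * 1 + 0 * (t ^ 2 + t) + t * (t ^ 2 + t) = (t + 1 : F)
    linear_combination ((-1) + (1) * t ^ 2) * h0 + ((1)) * ht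
  · show t * (t ^ 2) + t * 1 + 0 * (t ^ 2 + 1) + t * t = (t ^ 2 + 1 : F)
    linear_combination ((-1)) * h0 + ((1)) * ht
  · show t * 1 + t * 1 + 0 * (t ^ 2) + t * (t ^ 2 + 1) = (1 : F)
    linear_combination ((-1) + (1) * t) * h0 + ((1)) * ht
  · show t * (t ^ 2) + t * (t ^ 2 + t) + 0 * t + t * (t ^ 2 + 1) = (t ^ 2 + 1 : F)
    linear_combination ((-2) + (-1) * t) * h0 + ((3)) * ht
  · show 0 * (t + 1) + (t + 1) * 1 + (t + 1) * (t ^ 2 + t) + (t + 1) * (t ^ 2 + t) = (t + 1 : F)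
    linear_combination ((-1) + (2) * t ^ 2) * h0 + ((2)) * ht
  · show 0 * (t ^ 2) + (t + 1) * 1 + (t + 1) * (t ^ 2 + 1) + (t + 1) * t = (1 : F)
    linear_combination ((1) * t + (1) * t ^ 2) * h0 + ((1)) * ht
  · show 0 * 1 + (t + 1) * 1 + (t + 1) * (t ^ 2) + (t + 1) * (t ^ 2 + 1) = (0 : F)
    linear_combination ((1) * t ^ 2) * h0 + ((2)) * ht
  · show 0 * (t ^ 2) + (t + 1) * (t ^ 2 + t) + (t + 1) * t + (t + 1) * (t ^ 2 + 1) = (t + 1 : F)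
    linear_combination ((-1) + (2) * t ^ 2) * h0 + ((2)) * ht
  · show t * (t + 1) + t * 1 + (t ^ 2 + t) * (t ^ 2 + t) + (t ^ 2) * (t ^ 2 + t) = (t + 1 : F)
    linear_combination ((-2) + (-2) * t) * h0 + ((3) + (2) * t) * ht
  · show t * (t ^ 2) + t * 1 + (t ^ 2 + t) * (t ^ 2 + 1) + (t ^ 2) * t = (1 : F)
    linear_combination ((-2) + (-1) * t) * h0 + ((3) + (1) * t) * ht
  · show t * 1 + t * 1 + (t ^ 2 + t) * (t ^ 2) + (t ^ 2) * (t ^ 2 + 1) = (t ^ 2 + t + 1 : F)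
    linear_combination ((-1) + (-1) * t + (-1) * t ^ 2) * h0 + ((1) + (2) * t) * ht
  · show t * (t ^ 2) + t * (t ^ 2 + t) + (t ^ 2 + t) * t + (t ^ 2) * (t ^ 2 + 1) = (1 : F)
    linear_combination ((-2) + (-2) * t + (1) * t ^ 2) * h0 + ((3) + (1) * t) * ht
  · show t * (t + 1) + 1 * 1 + (t + 1) * (t ^ 2 + t) + (t ^ 2) * (t ^ 2 + t) = (t + 1 : F)
    linear_combination ((-1) + (-1) * t + (1) * t ^ 2) * h0 + ((2) + (1) * t) * ht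
  · show t * (t ^ 2) + 1 * 1 + (t + 1) * (t ^ 2 + 1) + (t ^ 2) * t = (t ^ 2 + 1 : F)
    linear_combination ((-1) + (-1) * t) * h0 + ((3)) * ht
  · show t * 1 + 1 * 1 + (t + 1) * (t ^ 2) + (t ^ 2) * (t ^ 2 + 1) = (t ^ 2 + t : F)
    linear_combination ((-1) * t) * h0 + ((1) + (1) * t) * ht
  · show t * (t ^ 2) + 1 * (t ^ 2 + t) + (t + 1) * t + (t ^ 2) * (t ^ 2 + 1) = (1 : F)
    linear_combination ((-1) + (1) * t ^ 2) * h0 + ((1) + (1) * t) * ht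
theorem e11 : mV t * mB t = mD1 t := by
  refine mul_eq _ _ _ ?_
  intro i j
  fin_cases i <;> fin_cases j
  · show (t ^ 2 + 1) * (t + 1) + (t ^ 2 + 1) * 1 + 1 * (t ^ 2 + t) + (t ^ 2 + t + 1) * (t ^ 2 + t) = (t + 1 : F)
    linear_combination ((-1) + (-1) * t + (2) * t ^ 2) * h0 + ((3) + (1) * t) * ht
  · show (t ^ 2 + 1) * (t ^ 2) + (t ^ 2 + 1) * 1 + 1 * (t ^ 2 + 1) + (t ^ 2 + t + 1) * t = (t ^ 2 + t + 1 : F)
    linear_combination ((-1) * t + (1) * t ^ 2) * h0 + ((1) + (1) * t) * ht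
  · show (t ^ 2 + 1) * 1 + (t ^ 2 + 1) * 1 + 1 * (t ^ 2) + (t ^ 2 + t + 1) * (t ^ 2 + 1) = (t : F)
    linear_combination ((1) + (-1) * t + (2) * t ^ 2) * h0 + ((1) + (1) * t) * ht
  · show (t ^ 2 + 1) * (t ^ 2) + (t ^ 2 + 1) * (t ^ 2 + t) + 1 * t + (t ^ 2 + t + 1) * (t ^ 2 + 1) = (t ^ 2 + 1 : F)
    linear_combination ((-1) + (-1) * t) * h0 + ((2) + (3) * t) * ht
  · show 0 * (t + 1) + (t ^ 2 + t) * 1 + (t ^ 2 + t) * (t ^ 2 + t) + 1 * (t ^ 2 + t) = (t : F)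
    linear_combination ((-1) + (-1) * t + (1) * t ^ 2) * h0 + ((2) + (1) * t) * ht
  · show 0 * (t ^ 2) + (t ^ 2 + t) * 1 + (t ^ 2 + t) * (t ^ 2 + 1) + 1 * t = (t ^ 2 + t + 1 : F)
    linear_combination ((-1)) * h0 + ((1) + (1) * t) * ht
  · show 0 * 1 + (t ^ 2 + t) * 1 + (t ^ 2 + t) * (t ^ 2) + 1 * (t ^ 2 + 1) = (t ^ 2 + t : F)
    linear_combination ((-1) * t) * h0 + ((1) + (1) * t) * ht
  · show 0 * (t ^ 2) + (t ^ 2 + t) * (t ^ 2 + t) + (t ^ 2 + t) * t + 1 * (t ^ 2 + 1) = (0 : F)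
    linear_combination ((-1) + (-2) * t + (1) * t ^ 2) * h0 + ((3) + (1) * t) * ht
  · show (t + 1) * (t + 1) + (t + 1) * 1 + (t ^ 2 + 1) * (t ^ 2 + t) + (t ^ 2 + t + 1) * (t ^ 2 + t) = (1 : F)
    linear_combination ((-1) + (1) * t ^ 2) * h0 + ((3) + (2) * t) * ht
  · show (t + 1) * (t ^ 2) + (t + 1) * 1 + (t ^ 2 + 1) * (t ^ 2 + 1) + (t ^ 2 + t + 1) * t = (t ^ 2 + t : F)
    linear_combination ((-1) * t + (1) * t ^ 2) * h0 + ((2) + (1) * t) * ht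
  · show (t + 1) * 1 + (t + 1) * 1 + (t ^ 2 + 1) * (t ^ 2) + (t ^ 2 + t + 1) * (t ^ 2 + 1) = (t ^ 2 : F)
    linear_combination ((1)) * h0 + ((1) + (2) * t) * ht
  · show (t + 1) * (t ^ 2) + (t + 1) * (t ^ 2 + t) + (t ^ 2 + 1) * t + (t ^ 2 + t + 1) * (t ^ 2 + 1) = (1 : F)
    linear_combination ((-2) + (-1) * t + (2) * t ^ 2) * h0 + ((4) + (1) * t) * ht
  · show t * (t + 1) + 0 * 1 + (t ^ 2 + t) * (t ^ 2 + t) + (t ^ 2 + 1) * (t ^ 2 + t) = (t ^ 2 + t + 1 : F)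
    linear_combination ((-2) + (-2) * t) * h0 + ((3) + (2) * t) * ht
  · show t * (t ^ 2) + 0 * 1 + (t ^ 2 + t) * (t ^ 2 + 1) + (t ^ 2 + 1) * t = (1 : F)
    linear_combination ((-2) + (-1) * t) * h0 + ((3) + (1) * t) * ht
  · show t * 1 + 0 * 1 + (t ^ 2 + t) * (t ^ 2) + (t ^ 2 + 1) * (t ^ 2 + 1) = (0 : F)
    linear_combination ((-1) * t) * h0 + ((1) + (2) * t) * ht
  · show t * (t ^ 2) + 0 * (t ^ 2 + t) + (t ^ 2 + t) * t + (t ^ 2 + 1) * (t ^ 2 + 1) = (t + 1 : F)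
    linear_combination ((-1) + (-2) * t + (1) * t ^ 2) * h0 + ((2) + (1) * t) * ht
theorem e12 : mD1 t * mA t = mC t := by
  refine mul_eq _ _ _ ?_
  intro i j
  fin_cases i <;> fin_cases j
  · show (t + 1) * t + (t ^ 2 + t + 1) * 0 + t * t + (t ^ 2 + 1) * t = (t + 1 : F)
    linear_combination ((-1) + (1) * t ^ 2) * h0 + ((1)) * ht
  · show (t + 1) * t + (t ^ 2 + t + 1) * (t + 1) + t * t + (t ^ 2 + 1) * 1 = (t ^ 2 + 1 : F)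
    linear_combination ((1) * t + (2) * t ^ 2) * h0 + ((1)) * ht
  · show (t + 1) * 0 + (t ^ 2 + t + 1) * (t + 1) + t * (t ^ 2 + t) + (t ^ 2 + 1) * (t + 1) = (1 : F)
    linear_combination ((-1) + (2) * t ^ 2) * h0 + ((3)) * ht
  · show (t + 1) * t + (t ^ 2 + t + 1) * (t + 1) + t * (t ^ 2) + (t ^ 2 + 1) * (t ^ 2) = (t ^ 2 + 1 : F)
    linear_combination ((-1) + (1) * t ^ 2) * h0 + ((2) + (1) * t) * ht
  · show t * t + (t ^ 2 + t + 1) * 0 + (t ^ 2 + t) * t + 0 * t = (t + 1 : F)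
    linear_combination ((-1) + (-1) * t + (1) * t ^ 2) * h0 + ((1)) * ht
  · show t * t + (t ^ 2 + t + 1) * (t + 1) + (t ^ 2 + t) * t + 0 * 1 = (1 : F)
    linear_combination ((-1) + (2) * t ^ 2) * h0 + ((2)) * ht
  · show t * 0 + (t ^ 2 + t + 1) * (t + 1) + (t ^ 2 + t) * (t ^ 2 + t) + 0 * (t + 1) = (0 : F)
    linear_combination ((-1) + (-1) * t + (1) * t ^ 2) * h0 + ((3) + (1) * t) * ht
  · show t * t + (t ^ 2 + t + 1) * (t + 1) + (t ^ 2 + t) * (t ^ 2) + 0 * (t ^ 2) = (t + 1 : F)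
    linear_combination ((-1) + (-1) * t + (1) * t ^ 2) * h0 + ((2) + (1) * t) * ht
  · show 1 * t + (t ^ 2 + t) * 0 + (t ^ 2) * t + 1 * t = (t + 1 : F)
    linear_combination ((-1)) * h0 + ((1)) * ht
  · show 1 * t + (t ^ 2 + t) * (t + 1) + (t ^ 2) * t + 1 * 1 = (1 : F)
    linear_combination ((-1) + (1) * t ^ 2) * h0 + ((2)) * ht
  · show 1 * 0 + (t ^ 2 + t) * (t + 1) + (t ^ 2) * (t ^ 2 + t) + 1 * (t + 1) = (t ^ 2 + t + 1 : F)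
    linear_combination ((-1) + (-1) * t) * h0 + ((2) + (1) * t) * ht
  · show 1 * t + (t ^ 2 + t) * (t + 1) + (t ^ 2) * (t ^ 2) + 1 * (t ^ 2) = (1 : F)
    linear_combination ((-1) + (1) * t ^ 2) * h0 + ((1) + (1) * t) * ht
  · show (t ^ 2 + t + 1) * t + 1 * 0 + 0 * t + (t + 1) * t = (t + 1 : F)
    linear_combination ((-1) + (1) * t ^ 2) * h0 + ((1)) * ht
  · show (t ^ 2 + t + 1) * t + 1 * (t + 1) + 0 * t + (t + 1) * 1 = (t ^ 2 + 1 : F)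
    linear_combination ((1) * t) * h0 + ((1)) * ht
  · show (t ^ 2 + t + 1) * 0 + 1 * (t + 1) + 0 * (t ^ 2 + t) + (t + 1) * (t + 1) = (t ^ 2 + t : F)
    linear_combination ((1) + (1) * t) * h0
  · show (t ^ 2 + t + 1) * t + 1 * (t + 1) + 0 * (t ^ 2) + (t + 1) * (t ^ 2) = (1 : F)
    linear_combination ((-1) + (1) * t ^ 2) * h0 + ((2)) * ht
theorem e13 : J F * mU1 t = mX t := by
  refine mul_eq _ _ _ ?_
  intro i j
  fin_cases i <;> fin_cases j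
  · show 0 * 1 + 0 * 0 + 0 * 0 + 1 * 0 = (0 : F)
    ring
  · show 0 * 0 + 0 * 1 + 0 * 0 + 1 * 0 = (0 : F)
    ring
  · show 0 * t + 0 * 0 + 0 * 1 + 1 * 0 = (0 : F)
    ring
  · show 0 * (t ^ 2 + t) + 0 * t + 0 * 0 + 1 * 1 = (1 : F)
    ring
  · show 0 * 1 + 0 * 0 + 1 * 0 + 0 * 0 = (0 : F)
    ring
  · show 0 * 0 + 0 * 1 + 1 * 0 + 0 * 0 = (0 : F)
    ring
  · show 0 * t + 0 * 0 + 1 * 1 + 0 * 0 = (1 : F)
    ring
  · show 0 * (t ^ 2 + t) + 0 * t + 1 * 0 + 0 * 1 = (0 : F)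
    ring
  · show 0 * 1 + 1 * 0 + 0 * 0 + 0 * 0 = (0 : F)
    ring
  · show 0 * 0 + 1 * 1 + 0 * 0 + 0 * 0 = (1 : F)
    ring
  · show 0 * t + 1 * 0 + 0 * 1 + 0 * 0 = (0 : F)
    ring
  · show 0 * (t ^ 2 + t) + 1 * t + 0 * 0 + 0 * 1 = (t : F)
    ring
  · show 1 * 1 + 0 * 0 + 0 * 0 + 0 * 0 = (1 : F)
    ring
  · show 1 * 0 + 0 * 1 + 0 * 0 + 0 * 0 = (0 : F)
    ring
  · show 1 * t + 0 * 0 + 0 * 1 + 0 * 0 = (t : F)
    ring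
  · show 1 * (t ^ 2 + t) + 0 * t + 0 * 0 + 0 * 1 = (t ^ 2 + t : F)
    ring
theorem e14 : mU2 t * J F = mY1 t := by
  refine mul_eq _ _ _ ?_
  intro i j
  fin_cases i <;> fin_cases j
  · show 1 * 0 + 0 * 0 + (t ^ 2 + t) * 0 + (t ^ 2) * 1 = (t ^ 2 : F)
    ring
  · show 1 * 0 + 0 * 0 + (t ^ 2 + t) * 1 + (t ^ 2) * 0 = (t ^ 2 + t : F)
    ring
  · show 1 * 0 + 0 * 1 + (t ^ 2 + t) * 0 + (t ^ 2) * 0 = (0 : F)
    ring
  · show 1 * 1 + 0 * 0 + (t ^ 2 + t) * 0 + (t ^ 2) * 0 = (1 : F)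
    ring
  · show 0 * 0 + 1 * 0 + 0 * 0 + (t ^ 2 + t) * 1 = (t ^ 2 + t : F)
    ring
  · show 0 * 0 + 1 * 0 + 0 * 1 + (t ^ 2 + t) * 0 = (0 : F)
    ring
  · show 0 * 0 + 1 * 1 + 0 * 0 + (t ^ 2 + t) * 0 = (1 : F)
    ring
  · show 0 * 1 + 1 * 0 + 0 * 0 + (t ^ 2 + t) * 0 = (0 : F)
    ring
  · show 0 * 0 + 0 * 0 + 1 * 0 + 0 * 1 = (0 : F)
    ring
  · show 0 * 0 + 0 * 0 + 1 * 1 + 0 * 0 = (1 : F)
    ring
  · show 0 * 0 + 0 * 1 + 1 * 0 + 0 * 0 = (0 : F)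
    ring
  · show 0 * 1 + 0 * 0 + 1 * 0 + 0 * 0 = (0 : F)
    ring
  · show 0 * 0 + 0 * 0 + 0 * 0 + 1 * 1 = (1 : F)
    ring
  · show 0 * 0 + 0 * 0 + 0 * 1 + 1 * 0 = (0 : F)
    ring
  · show 0 * 0 + 0 * 1 + 0 * 0 + 1 * 0 = (0 : F)
    ring
  · show 0 * 1 + 0 * 0 + 0 * 0 + 1 * 0 = (0 : F)
    ring
theorem e15 : mY1 t * mU3 t = mY t := by
  refine mul_eq _ _ _ ?_
  intro i j
  fin_cases i <;> fin_cases j
  · show (t ^ 2) * 1 + (t ^ 2 + t) * 0 + 0 * 0 + 1 * 0 = (t ^ 2 : F)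
    ring
  · show (t ^ 2) * (t ^ 2) + (t ^ 2 + t) * 1 + 0 * 0 + 1 * 0 = (0 : F)
    linear_combination ((1) * t) * ht
  · show (t ^ 2) * t + (t ^ 2 + t) * t + 0 * 1 + 1 * 0 = (t ^ 2 : F)
    linear_combination ((-1) + (-1) * t) * h0 + ((2)) * ht
  · show (t ^ 2) * t + (t ^ 2 + t) * 1 + 0 * (t ^ 2) + 1 * 1 = (t ^ 2 : F)
    linear_combination ((1)) * ht
  · show (t ^ 2 + t) * 1 + 0 * 0 + 1 * 0 + 0 * 0 = (t ^ 2 + t : F)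
    ring
  · show (t ^ 2 + t) * (t ^ 2) + 0 * 1 + 1 * 0 + 0 * 0 = (t ^ 2 + 1 : F)
    linear_combination ((-1) + (-1) * t + (-1) * t ^ 2) * h0 + ((1) + (1) * t) * ht
  · show (t ^ 2 + t) * t + 0 * t + 1 * 1 + 0 * 0 = (t ^ 2 + t : F)
    linear_combination ((-1) * t) * h0 + ((1)) * ht
  · show (t ^ 2 + t) * t + 0 * 1 + 1 * (t ^ 2) + 0 * 1 = (t + 1 : F)
    linear_combination ((-1) + (-1) * t + (1) * t ^ 2) * h0 + ((1)) * ht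
  · show 0 * 1 + 1 * 0 + 0 * 0 + 0 * 0 = (0 : F)
    ring
  · show 0 * (t ^ 2) + 1 * 1 + 0 * 0 + 0 * 0 = (1 : F)
    ring
  · show 0 * t + 1 * t + 0 * 1 + 0 * 0 = (t : F)
    ring
  · show 0 * t + 1 * 1 + 0 * (t ^ 2) + 0 * 1 = (1 : F)
    ring
  · show 1 * 1 + 0 * 0 + 0 * 0 + 0 * 0 = (1 : F)
    ring
  · show 1 * (t ^ 2) + 0 * 1 + 0 * 0 + 0 * 0 = (t ^ 2 : F)
    ring
  · show 1 * t + 0 * t + 0 * 1 + 0 * 0 = (t : F)
    ring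
  · show 1 * t + 0 * 1 + 0 * (t ^ 2) + 0 * 1 = (t : F)
    ring
end

theorem Umat_eq (θ : F →+* F) (a b c d e : F) (hc : a * b + a ^ 2 * θ a + θ b = c) (hd : θ a = d)
    (he : b + a * θ a = e) :
    Umat θ a b = !![1, a, b, c; 0, 1, d, e; 0, 0, 1, a; 0, 0, 0, 1] := by
  subst hc hd he
  rfl

theorem inv_val {g : GL (Fin 4) F} {M N : Matrix (Fin 4) (Fin 4) F} (h : g.1 = M) (hMN : M * N = 1) :
    (g⁻¹).1 = N := by
  have h1 : (g⁻¹).1 * g.1 = 1 := by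
    rw [← Units.val_mul, inv_mul_cancel, Units.val_one]
  calc (g⁻¹).1 = (g⁻¹).1 * (M * N) := by rw [hMN, Matrix.mul_one]
    _ = ((g⁻¹).1 * g.1) * N := by rw [h, Matrix.mul_assoc]
    _ = N := by rw [h1, Matrix.one_mul]

theorem exists_root [Fintype F] (hF : Fintype.card F = 8) (h0 : (2 : F) = 0) :
    ∃ t : F, t ^ 3 + t + 1 = 0 := by
  classical
  obtain ⟨a, ha⟩ : ∃ a : F, a ∉ ({0, 1} : Finset F) := by
    by_contra hcon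
    push Not at hcon
    have h1 : Finset.univ ⊆ ({0, 1} : Finset F) := fun x _ => hcon x
    have h2 := Finset.card_le_card h1
    rw [Finset.card_univ, hF] at h2
    exact absurd (h2.trans Finset.card_le_two) (by norm_num)
  simp only [Finset.mem_insert, Finset.mem_singleton, not_or] at ha
  have h8 : a ^ 8 = a := by
    have := FiniteField.pow_card a
    rwa [hF] at this
  have h1 : (a * (a - 1)) * ((a ^ 3 + a + 1) * (a ^ 3 + a ^ 2 + 1)) = 0 := by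
    linear_combination h8 + (a ^ 5 - a ^ 4) * h0
  have h2 : a * (a - 1) ≠ 0 := mul_ne_zero ha.1 (sub_ne_zero.2 ha.2)
  rcases mul_eq_zero.1 ((mul_eq_zero.1 h1).resolve_left h2) with h | h
  · exact ⟨a, h⟩
  · exact ⟨a + 1, by linear_combination h + (a ^ 2 + 2 * a + 1) * h0⟩

theorem fixedPair_sz8 {F : Type*} [Field F] [Fintype F] (hF : Fintype.card F = 8) :
    FixedPair ↥(Cfsg.Lie.Sz F 4) := by
  have hF' : Fintype.card F = 2 ^ (2 * 1 + 1) := by rw [hF]; norm_num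
  have H : Good F (theta hF') 4 := good hF'
  have h0 : (2 : F) = 0 := H.two
  obtain ⟨t, ht⟩ := exists_root hF h0
  have hθ : ∀ x : F, theta hF' x = x ^ 4 := fun x => (H.pow x).symm
  have hU1 : Umat (theta hF') 0 t = mU1 t := by
    refine Umat_eq _ _ _ _ _ _ ?_ ?_ ?_
    · rw [hθ, hθ]; linear_combination (-t ^ 2 - t) * h0 + t * ht
    · rw [hθ]; ring
    · ring
  have hU2 : Umat (theta hF') 0 (t ^ 2 + t) = mU2 t := by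
    refine Umat_eq _ _ _ _ _ _ ?_ ?_ ?_
    · rw [hθ, hθ]
      linear_combination ((2) + (6) * t + (4) * t ^ 2) * h0 + ((-4) + (-8) * t + (-1) * t ^ 2 + (5) * t ^ 3 + (4) * t ^ 4 + (1) * t ^ 5) * ht
    · rw [hθ]; ring
    · ring
  have hU3 : Umat (theta hF') (t ^ 2) t = mU3 t := by
    refine Umat_eq _ _ _ _ _ _ ?_ ?_ ?_
    · rw [hθ, hθ]
      linear_combination ((-2) + (-2) * t + (2) * t ^ 2) * h0 + ((4) + (-1) * t + (-3) * t ^ 2 + (2) * t ^ 4 + (1) * t ^ 5 + (-1) * t ^ 6 + (-1) * t ^ 7 + (1) * t ^ 9) * ht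
    · rw [hθ]
      linear_combination ((-1) + (-2) * t) * h0 + ((2) + (1) * t + (-1) * t ^ 2 + (-1) * t ^ 3 + (1) * t ^ 5) * ht
    · rw [hθ]
      linear_combination ((1) + (2) * t + (-1) * t ^ 2) * h0 + ((-3) + (2) * t ^ 2 + (1) * t ^ 3 + (-1) * t ^ 4 + (-1) * t ^ 5 + (1) * t ^ 7) * ht
  let x : GL (Fin 4) F := W F * H.U 0 t
  let y : GL (Fin 4) F := H.U 0 (t ^ 2 + t) * W F * H.U (t ^ 2) t
  have hx : x ∈ Cfsg.Lie.Sz F 4 := mul_mem H.W_mem (H.U_mem _ _)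
  have hy : y ∈ Cfsg.Lie.Sz F 4 := mul_mem (mul_mem (H.U_mem _ _) H.W_mem) (H.U_mem _ _)
  have hxv : x.1 = mX t := by
    show J F * Umat (theta hF') 0 t = mX t
    rw [hU1, e13 h0 ht]
  have hyv : y.1 = mY t := by
    show Umat (theta hF') 0 (t ^ 2 + t) * J F * Umat (theta hF') (t ^ 2) t = mY t
    rw [hU2, hU3, e14 h0 ht, e15 h0 ht]
  have hxi : (x⁻¹).1 = mXI t := inv_val hxv (e1 h0 ht)
  have hyi : (y⁻¹).1 = mYI t := inv_val hyv (e2 h0 ht)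
  have hv : (v0 x y).1 = mV t := by
    rw [v0, Units.val_mul, Units.val_mul, Units.val_mul, hxi, hyi, hxv, e3 h0 ht, e4 h0 ht, e5 h0 ht]
  have hA : (x * v0 x y * x⁻¹).1 = mA t := by
    rw [Units.val_mul, Units.val_mul, hxi, hxv, hv, e6 h0 ht, e7 h0 ht]
  have hB : (y * v0 x y * y⁻¹).1 = mB t := by
    rw [Units.val_mul, Units.val_mul, hyi, hyv, hv, e8 h0 ht, e9 h0 ht]
  have hstp : stp x y (v0 x y) = v0 x y := by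
    rw [stp, mul_inv_eq_iff_eq_mul, mul_inv_eq_iff_eq_mul]
    apply Units.ext
    rw [Units.val_mul (x * v0 x y * x⁻¹), Units.val_mul (v0 x y * _), Units.val_mul (v0 x y) (y * v0 x y * y⁻¹),
      hA, hB, hv, e10 h0 ht, e11 h0 ht, e12 h0 ht]
  have hv1 : v0 x y ≠ 1 := by
    intro h
    have h1 : (v0 x y).1 0 2 = (1 : Matrix (Fin 4) (Fin 4) F) 0 2 := by rw [h]; rfl
    rw [hv, one_eq] at h1
    have h2 : (1 : F) = 0 := h1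
    exact one_ne_zero h2
  refine ⟨⟨x, hx⟩, ⟨y, hy⟩, ?_, ?_⟩
  · intro h
    apply hv1
    have := congrArg Subtype.val h
    exact this
  · apply Subtype.ext
    exact hstp

end Cfsg.Agent.H64.VsSz
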