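import Mathlib
import Cfsg.Agent.H482.VSeq

/-!
# A fixed pair for the words `v_n` in `PSL(3, 3)` (for S3935)
-/

set_option autoImplicit false

namespace Cfsg.Agent.H64.VsPSLThree

open Cfsg.Agent.H482.VSeq Matrix

def mX : Matrix (Fin 3) (Fin 3) (ZMod 3) := !![0, 0, 1; 1, 0, 1; 1, 1, 2]
def mY : Matrix (Fin 3) (Fin 3) (ZMod 3) := !![0, 1, 0; 2, 2, 2; 2, 0, 0]
def mXi : Matrix (Fin 3) (Fin 3) (ZMod 3) := !![2, 1, 0; 2, 2, 1; 1, 0, 0]
def mYi : Matrix (Fin 3) (Fin 3) (ZMod 3) := !![0, 0, 2; 1, 0, 0; 2, 2, 1]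
def mV : Matrix (Fin 3) (Fin 3) (ZMod 3) := !![0, 1, 1; 0, 2, 0; 1, 1, 0]
def mA : Matrix (Fin 3) (Fin 3) (ZMod 3) := !![1, 0, 1; 1, 2, 2; 0, 0, 2]
def mB : Matrix (Fin 3) (Fin 3) (ZMod 3) := !![2, 0, 0; 0, 1, 0; 0, 1, 2]

def eX : Matrix.SpecialLinearGroup (Fin 3) (ZMod 3) := ⟨mX, by rw [Matrix.det_fin_three]; decide⟩
def eY : Matrix.SpecialLinearGroup (Fin 3) (ZMod 3) := ⟨mY, by rw [Matrix.det_fin_three]; decide⟩
def eXi : Matrix.SpecialLinearGroup (Fin 3) (ZMod 3) := ⟨mXi, by rw [Matrix.det_fin_three]; decide⟩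
def eYi : Matrix.SpecialLinearGroup (Fin 3) (ZMod 3) := ⟨mYi, by rw [Matrix.det_fin_three]; decide⟩
def eV : Matrix.SpecialLinearGroup (Fin 3) (ZMod 3) := ⟨mV, by rw [Matrix.det_fin_three]; decide⟩
def eA : Matrix.SpecialLinearGroup (Fin 3) (ZMod 3) := ⟨mA, by rw [Matrix.det_fin_three]; decide⟩
def eB : Matrix.SpecialLinearGroup (Fin 3) (ZMod 3) := ⟨mB, by rw [Matrix.det_fin_three]; decide⟩

theorem inv_eY : (eY)⁻¹ = eYi := by
  rw [inv_eq_iff_mul_eq_one]
  apply Subtype.ext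
  show mY * mYi = 1
  decide

theorem inv_eX : (eX)⁻¹ = eXi := by
  rw [inv_eq_iff_mul_eq_one]
  apply Subtype.ext
  show mX * mXi = 1
  decide

theorem v0_eq : v0 eX eY = eV := by
  rw [v0, inv_eX, inv_eY]
  apply Subtype.ext
  show mXi * mXi * mYi * mX = mV
  decide

theorem a_eq : eX * eV * eX⁻¹ = eA := by
  rw [inv_eX]
  apply Subtype.ext
  show mX * mV * mXi = mA
  decide

theorem b_eq : eY * eV * eY⁻¹ = eB := by
  rw [inv_eY]
  apply Subtype.ext
  show mY * mV * mYi = mB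
  decide

theorem stp_eV : stp eX eY eV = eV := by
  rw [stp, a_eq, b_eq, mul_inv_eq_iff_eq_mul, mul_inv_eq_iff_eq_mul]
  apply Subtype.ext
  show mA * mB = mV * mB * mA
  decide

theorem fixedPair_psl3 {F : Type*} [Field F] [Fintype F] (hF : Fintype.card F = 3) :
    FixedPair (Matrix.ProjectiveSpecialLinearGroup (Fin 3) F) := by
  have hchar : CharP F 3 := by
    have h30 : (3 : F) = 0 := by
      have := FiniteField.cast_card_eq_zero F
      rw [hF] at this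
      exact_mod_cast this
    have h := ringChar.charP F
    have hd : ringChar F ∣ 3 := (ringChar.spec F 3).1 (by exact_mod_cast h30)
    rcases (Nat.dvd_prime Nat.prime_three).1 hd with h1 | h1
    · exact absurd h1 (CharP.ringChar_ne_one)
    · rw [← h1]; exact h
  let f : ZMod 3 →+* F := ZMod.castHom (dvd_refl 3) F
  let φ : Matrix.SpecialLinearGroup (Fin 3) (ZMod 3) →* Matrix.ProjectiveSpecialLinearGroup (Fin 3) F :=
    (QuotientGroup.mk' _).comp (Matrix.SpecialLinearGroup.map f)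
  have hX : φ eV ≠ 1 := by
    intro h
    have h1 := (QuotientGroup.eq_one_iff _).1 h
    rw [Matrix.SpecialLinearGroup.mem_center_iff] at h1
    obtain ⟨r, -, hr⟩ := h1
    have h2 := congrFun (congrFun hr 0) 1
    have h3 : ((Matrix.SpecialLinearGroup.map f) eV).1 0 1 = f 1 := rfl
    have h4 : (Matrix.scalar (Fin 3) r) 0 1 = 0 := by simp
    rw [h4] at h2
    have h5 : (0 : F) = f 1 := h2.trans h3
    rw [map_one] at h5
    exact zero_ne_one h5
  refine FixedPair.of_hom (x := eX) (y := eY) φ ?_ ?_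
  · rw [v0_eq]; exact hX
  · rw [v0_eq, stp_eV]

end Cfsg.Agent.H64.VsPSLThree
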